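import Cfsg.Agent.Lib.Helper61.QB.DefsG
import Cfsg.Agent.Lib.Helper97.KazarinCore

/-! FARM S4125, part G, piece P3 (helper88). -/

set_option autoImplicit false

namespace Cfsg.Agent.Lib.Helper88.QB

open Cfsg.Agent.Lib.Helper61.QB

universe u

variable {G : Type u} [Group G] [Finite G] {q : ℕ} [Fact q.Prime]

omit [Finite G] in
theorem diffSub_normal (x : G) : (diffSub x).Normal := by
  unfold diffSub
  constructor
  intro n hn g
  induction hn using Subgroup.closure_induction with
  | mem y hy =>
    obtain ⟨a, b, rfl⟩ := hy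
    apply Subgroup.subset_closure
    exact ⟨g * a, g * b, by group⟩
  | one => simp
  | mul y z _ _ hy hz =>
    have : g * (y * z) * g⁻¹ = (g * y * g⁻¹) * (g * z * g⁻¹) := by group
    rw [this]; exact mul_mem hy hz
  | inv y _ hy =>
    have : g * y⁻¹ * g⁻¹ = (g * y * g⁻¹)⁻¹ := by group
    rw [this]; exact inv_mem hy

theorem central_of_diffSub (x : G) (hx : IsQ q x) {r s a b : ℕ} (hr : r.Prime) (hs : s.Prime)
    (hsr : s ≠ r) (hsq : s ≠ q) (hi : idx x = r ^ a) (hD : Nat.card (diffSub x) ∣ s ^ b) :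
    idx x = 1 := by
  have hn : (diffSub x).Normal := diffSub_normal x
  have hcop : (Nat.card (diffSub x)).Coprime r :=
    Nat.Coprime.coprime_dvd_left hD (Nat.Coprime.pow_left b ((Nat.coprime_primes hs hr).mpr hsr))
  have hle : diffSub x ≤ Subgroup.centralizer ({x} : Set G) :=
    Cfsg.Agent.Lib.Helper97.le_centralizer_of_coprime (a := a) (diffSub x) hcop x (by rw [← hi])
  obtain ⟨k, hk⟩ := hx
  have htop : Subgroup.centralizer ({x} : Set G) = ⊤ := by
    rw [eq_top_iff]
    intro g _
    have hd : x⁻¹ * (g * x * g⁻¹) ∈ diffSub x := by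
      apply Subgroup.subset_closure
      exact ⟨1, g, by simp⟩
    set d := x⁻¹ * (g * x * g⁻¹) with hdd
    have hcomm : Commute x d := by
      have := Subgroup.mem_centralizer_singleton_iff.mp (hle hd)
      exact this.symm
    have hxd : x * d = g * x * g⁻¹ := by rw [hdd]; group
    have h1 : (x * d) ^ (q ^ k) = 1 := by
      rw [hxd, conj_pow, ← hk, pow_orderOf_eq_one]; group
    rw [hcomm.mul_pow, ← hk, pow_orderOf_eq_one, one_mul, hk] at h1
    have h2 : orderOf d ∣ q ^ k := orderOf_dvd_of_pow_eq_one h1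
    have h3 : orderOf d ∣ s ^ b := by
      have : orderOf (⟨d, hd⟩ : diffSub x) ∣ Nat.card (diffSub x) := orderOf_dvd_natCard _
      rw [← Subgroup.orderOf_coe] at this
      exact this.trans hD
    have h4 : (q ^ k).Coprime (s ^ b) :=
      Nat.Coprime.pow k b ((Nat.coprime_primes (Fact.out : q.Prime) hs).mpr (Ne.symm hsq))
    have h5 : orderOf d = 1 := Nat.eq_one_of_dvd_coprimes h4 h2 h3
    have h6 : d = 1 := orderOf_eq_one_iff.mp h5
    rw [h6, mul_one] at hxd
    rw [Subgroup.mem_centralizer_singleton_iff]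
    have : g * x = g * x * g⁻¹ * g := by group
    rw [this, ← hxd]
  change (Subgroup.centralizer ({x} : Set G)).index = 1
  rw [htop, Subgroup.index_top]

end Cfsg.Agent.Lib.Helper88.QB
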